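import Mathlib
import Cfsg.Agent.H860.JM.Geom
import Cfsg.Agent.Lib.LocalCore

/-!
# Maximal 2-local subgroups of `J4`: the top part of the abstract argument

`ll : Facts Γ → LL Γ`, `pt : Facts Γ → PT Γ` and `two_local` (the reduction to the cases A and B).
-/

set_option autoImplicit false

namespace Cfsg.Agent.H172.JM

open Subgroup Cfsg Cfsg.Agent.H860.JM

variable {G : Type*} [Group G]

theorem conj_mem {M R : Subgroup G} (h : M ≤ normalizer (R : Set G)) {m x : G} (hm : m ∈ M)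
    (hx : x ∈ R) : m * x * m⁻¹ ∈ R :=
  (mem_normalizer_iff.1 (h hm) x).1 hx

theorem conj_mem' {M R : Subgroup G} (h : M ≤ normalizer (R : Set G)) {m x : G} (hm : m ∈ M)
    (hx : x ∈ R) : m⁻¹ * x * m ∈ R := by
  have := conj_mem h (M.inv_mem hm) hx
  rwa [inv_inv] at this

/-- a group `M` normalizing `{1, z}` centralizes `z` -/
theorem le_centralizer_of {M R : Subgroup G} (h : M ≤ normalizer (R : Set G)) {z : G} (hz : z ∈ R)
    (hz1 : z ≠ 1) (hR : ∀ x ∈ R, x = 1 ∨ x = z) : M ≤ centralizer {z} := by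
  intro m hm
  rw [mem_centralizer_singleton_iff]
  rcases hR _ (conj_mem h hm hz) with h1 | h1
  · exfalso
    apply hz1
    calc z = m⁻¹ * (m * z * m⁻¹) * m := by group
      _ = 1 := by rw [h1]; group
  · calc m * z = m * z * m⁻¹ * m := by group
      _ = z * m := by rw [h1]

theorem mem_normalizer_of_cj {D : Subgroup G} {m : G} (h : D = cj m D) :
    m ∈ normalizer (D : Set G) := by
  rw [mem_normalizer_iff]
  intro x
  constructor
  · intro hx
    rw [h]
    exact ⟨x, hx, rfl⟩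
  · intro hx
    rw [h] at hx
    obtain ⟨y, hy, hxy⟩ := hx
    have h1 : m * y * m⁻¹ = m * x * m⁻¹ := hxy
    have h2 : y = x := mul_left_cancel (mul_right_cancel h1)
    rw [← h2]
    exact hy

/-- **(LL)** -/
theorem ll (Γ : Geom G) (h : Facts Γ) : LL Γ := by
  intro M R D hD hRD hR hM
  by_cases h2 : ∃ u ∈ R, ∃ v ∈ R, u ≠ 1 ∧ v ≠ 1 ∧ u ≠ v
  · obtain ⟨u, hu, v, hv, hu1, hv1, huv⟩ := h2
    refine Or.inr (Or.inr (Or.inl ⟨D, hD, ?_⟩))
    intro m hm
    apply mem_normalizer_of_cj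
    have h3 : ∀ x ∈ R, x ∈ cj m D := by
      intro x hx
      refine ⟨m⁻¹ * x * m, hRD (conj_mem' hM hm hx), ?_⟩
      change m * (m⁻¹ * x * m) * m⁻¹ = x
      group
    exact h.f6.uniq D (cj m D) hD (h.f1.Ln_conj m D hD) u v hu1 hv1 huv (hRD hu) (hRD hv)
      (h3 u hu) (h3 v hv)
  · push Not at h2
    obtain ⟨z, hz'⟩ := Subgroup.ne_bot_iff_exists_ne_one.1 hR
    have hz := z.2
    have hz1 : (z : G) ≠ 1 := fun h1 => hz' (Subtype.ext h1)
    refine Or.inl ⟨z, h.f6.pure D hD z (hRD hz) hz1, ?_⟩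
    refine le_centralizer_of hM hz hz1 ?_
    intro x hx
    by_cases hx1 : x = 1
    · exact Or.inl hx1
    · exact Or.inr (h2 x hx z hz hx1 hz1)

/-- `M` normalizes the intersection of an `M`-invariant set -/
theorem le_normalizer_sInf {M : Subgroup G} {S : Set (Subgroup G)} (hI : Inv M S) :
    M ≤ normalizer ((sInf S : Subgroup G) : Set G) := by
  have h1 : ∀ m ∈ M, ∀ x ∈ sInf S, m * x * m⁻¹ ∈ sInf S := by
    intro m hm x hx
    rw [mem_sInf] at hx ⊢
    intro P hP
    obtain ⟨y, hy⟩ : ∃ y, y = x := ⟨x, rfl⟩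
    have h2 := hx _ (hI m⁻¹ (M.inv_mem hm) P hP)
    obtain ⟨p, hp, hpx⟩ := h2
    have h3 : m⁻¹ * p * (m⁻¹)⁻¹ = x := hpx
    have h4 : m * x * m⁻¹ = p := by
      rw [← h3]; group
    rw [h4]
    exact hp
  intro m hm
  rw [mem_normalizer_iff]
  intro x
  refine ⟨h1 m hm x, fun hx => ?_⟩
  have h2 := h1 m⁻¹ (M.inv_mem hm) _ hx
  have h3 : m⁻¹ * (m * x * m⁻¹) * (m⁻¹)⁻¹ = x := by group
  rwa [h3] at h2

/-- **(PT)** -/
theorem pt (Γ : Geom G) (h : Facts Γ) : PT Γ := by
  intro M S hI hP hne hbot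
  have hN := le_normalizer_sInf hI
  by_cases h2 : ∃ P ∈ S, ∃ P' ∈ S, P ≠ P'
  · obtain ⟨P, hPS, P', hPS', hPP⟩ := h2
    have hle : sInf S ≤ P ⊓ P' := le_inf (sInf_le hPS) (sInf_le hPS')
    rcases h.f5 P P' (hP P hPS) (hP P' hPS') hPP with h3 | ⟨z, hz, h3⟩ | h3
    · exact absurd (le_bot_iff.1 (h3 ▸ hle)) hbot
    · obtain ⟨x, hx⟩ := Subgroup.ne_bot_iff_exists_ne_one.1 hbot
      have hx1 : (x : G) ≠ 1 := fun h1 => hx (Subtype.ext h1)
      have hxz : (x : G) = z := ((h3 x).1 (hle x.2)).resolve_left hx1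
      refine Or.inl ⟨z, hz, ?_⟩
      rw [← hxz]
      refine le_centralizer_of hN x.2 hx1 ?_
      intro y hy
      rw [hxz]
      exact (h3 y).1 (hle hy)
    · exact ll Γ h M (sInf S) (P ⊓ P') h3 hle hbot hN
  · push Not at h2
    obtain ⟨P, hPS⟩ := hne
    refine Or.inr (Or.inl ⟨P, hP P hPS, ?_⟩)
    have h3 : sInf S = P := by
      apply le_antisymm (sInf_le hPS)
      apply le_sInf
      intro P' hPS'
      exact (h2 P hPS P' hPS').le
    rwa [h3] at hN

section Local

/-- a finite subgroup without nontrivial elements of odd order is a 2-group -/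
theorem isPGroup_two_of [Finite G] {C : Subgroup G} (h : ∀ x ∈ C, Odd (orderOf x) → x = 1) :
    IsPGroup 2 C := by
  rintro ⟨x, hx⟩
  have h0 : orderOf x ≠ 0 := (orderOf_pos x).ne'
  obtain ⟨k, m, hm, hkm⟩ := Nat.exists_eq_two_pow_mul_odd h0
  refine ⟨k, Subtype.ext ?_⟩
  change x ^ 2 ^ k = 1
  apply h _ (C.pow_mem hx _)
  have h1 : orderOf (x ^ 2 ^ k) = m := by
    rw [orderOf_pow' x (pow_ne_zero k two_ne_zero), hkm, Nat.gcd_eq_right (Dvd.intro _ rfl),
      Nat.mul_div_cancel_left _ (pow_pos two_pos k)]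
  rw [h1]
  exact hm

/-- `Ω₁(Z(Q))` for a 2-group `Q` -/
def om (Q : Subgroup G) : Subgroup G where
  carrier := {e | e ∈ Q ∧ e * e = 1 ∧ ∀ x ∈ Q, x * e = e * x}
  mul_mem' := by
    rintro a b ⟨ha, ha2, hac⟩ ⟨hb, hb2, hbc⟩
    refine ⟨Q.mul_mem ha hb, ?_, ?_⟩
    · calc a * b * (a * b) = a * (b * a) * b := by group
        _ = a * (a * b) * b := by rw [hac b hb]
        _ = (a * a) * (b * b) := by group
        _ = 1 := by rw [ha2, hb2, one_mul]
    · intro x hx
      calc x * (a * b) = (x * a) * b := by group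
        _ = a * (x * b) := by rw [hac x hx]; group
        _ = a * b * x := by rw [hbc x hx]; group
  one_mem' := ⟨Q.one_mem, one_mul 1, fun x _ => by rw [mul_one, one_mul]⟩
  inv_mem' := by
    rintro a ⟨ha, ha2, hac⟩
    have h1 : a⁻¹ = a := inv_eq_of_mul_eq_one_left ha2
    exact ⟨Q.inv_mem ha, by rw [h1]; exact ha2, by rw [h1]; exact hac⟩

theorem mem_om {Q : Subgroup G} {e : G} :
    e ∈ om Q ↔ e ∈ Q ∧ e * e = 1 ∧ ∀ x ∈ Q, x * e = e * x := Iff.rfl

theorem om_ne_bot [Finite G] {Q : Subgroup G} (h : IsPGroup 2 Q) (h1 : Q ≠ ⊥) : om Q ≠ ⊥ := by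
  have : Fact (Nat.Prime 2) := ⟨Nat.prime_two⟩
  have : Nontrivial Q := (Subgroup.nontrivial_iff_ne_bot Q).2 h1
  have h2 : Nontrivial (Subgroup.center Q) := h.center_nontrivial
  have h3 : 2 ∣ Nat.card (Subgroup.center Q) := by
    have h4 : IsPGroup 2 (Subgroup.center Q) := h.to_subgroup _
    obtain ⟨n, hn⟩ := IsPGroup.iff_card.1 h4
    rw [hn]
    apply dvd_pow_self
    rintro rfl
    rw [pow_zero] at hn
    have h5 := Finite.one_lt_card_iff_nontrivial.2 h2
    omega
  obtain ⟨z, hz⟩ := exists_prime_orderOf_dvd_card' (G := Subgroup.center Q) 2 h3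
  intro h5
  have h6 : ((z : Q) : G) ∈ om Q := by
    refine ⟨(z : Q).2, ?_, ?_⟩
    · have h7 : z * z = 1 := by rw [← pow_two, ← hz, pow_orderOf_eq_one]
      exact congrArg (fun t : Subgroup.center Q => ((t : Q) : G)) h7
    · intro x hx
      exact congrArg Subtype.val (Subgroup.mem_center_iff.1 z.2 ⟨x, hx⟩)
  rw [h5, mem_bot] at h6
  have h8 : z = 1 := Subtype.ext (Subtype.ext h6)
  rw [h8, orderOf_one] at hz
  omega

theorem le_normalizer_om {M Q : Subgroup G} (h : M ≤ normalizer (Q : Set G)) :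
    M ≤ normalizer (om Q : Set G) := by
  have h1 : ∀ m ∈ M, ∀ e ∈ om Q, m * e * m⁻¹ ∈ om Q := by
    rintro m hm e ⟨he, he2, hec⟩
    refine ⟨conj_mem h hm he, ?_, ?_⟩
    · calc m * e * m⁻¹ * (m * e * m⁻¹) = m * (e * e) * m⁻¹ := by group
        _ = 1 := by rw [he2]; group
    · intro x hx
      have h2 := hec _ (conj_mem' h hm hx)
      calc x * (m * e * m⁻¹) = m * ((m⁻¹ * x * m) * e) * m⁻¹ := by group
        _ = m * (e * (m⁻¹ * x * m)) * m⁻¹ := by rw [h2]
        _ = m * e * m⁻¹ * x := by group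
  intro m hm
  rw [mem_normalizer_iff]
  intro x
  refine ⟨h1 m hm x, fun hx => ?_⟩
  have h2 := h1 m⁻¹ (M.inv_mem hm) _ hx
  have h3 : m⁻¹ * (m * x * m⁻¹) * (m⁻¹)⁻¹ = x := by group
  rwa [h3] at h2

/-- (I.0) `C(O₂(M)) ≤ O₂(M)` for a maximal 2-local subgroup `M = N(O₂(M))` -/
theorem centralizer_le_core [Finite G] {Γ : Geom G} (h : Facts Γ) {M Q : Subgroup G}
    (hQ : Q = (pCore 2 M).map M.subtype) (hbot : Q ≠ ⊥) (hN : normalizer (Q : Set G) = M) :
    centralizer (Q : Set G) ≤ Q := by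
  have : Fact (Nat.Prime 2) := ⟨Nat.prime_two⟩
  have hQ2 : IsPGroup 2 Q := by rw [hQ]; exact Lib.LocalCore.isPGroup_map_pCore 2 M
  have hCM : centralizer (Q : Set G) ≤ M := by rw [← hN]; exact centralizer_le_normalizer _
  have hMC : M ≤ normalizer ((centralizer (Q : Set G) : Subgroup G) : Set G) := by
    intro m hm
    have h1 : ∀ m ∈ M, ∀ c ∈ centralizer (Q : Set G), m * c * m⁻¹ ∈ centralizer (Q : Set G) := by
      intro m hm c hc
      rw [mem_centralizer_iff] at hc ⊢
      intro q hq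
      have h2 := hc _ (conj_mem' hN.ge hm hq)
      calc q * (m * c * m⁻¹) = m * ((m⁻¹ * q * m) * c) * m⁻¹ := by group
        _ = m * (c * (m⁻¹ * q * m)) * m⁻¹ := by rw [h2]
        _ = m * c * m⁻¹ * q := by group
    rw [mem_normalizer_iff]
    intro x
    refine ⟨h1 m hm x, fun hx => ?_⟩
    have h3 := h1 m⁻¹ (M.inv_mem hm) _ hx
    have h4 : m⁻¹ * (m * x * m⁻¹) * (m⁻¹)⁻¹ = x := by group
    rwa [h4] at h3
  obtain ⟨e, he⟩ := Subgroup.ne_bot_iff_exists_ne_one.1 (om_ne_bot hQ2 hbot)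
  have he1 : (e : G) ≠ 1 := fun h1 => he (Subtype.ext h1)
  obtain ⟨heQ, he2, hec⟩ := mem_om.1 e.2
  obtain ⟨R, hR2, hRe, heR, hRR⟩ := h.f0 e (h.f1.invol e he1 he2)
  have hCe : centralizer (Q : Set G) ≤ centralizer {(e : G)} := by
    apply Subgroup.centralizer_le
    rw [Set.singleton_subset_iff]
    exact heQ
  have hQe : Q ≤ centralizer {(e : G)} := by
    intro x hx
    rw [mem_centralizer_singleton_iff]
    exact hec x hx
  have hCR : centralizer (Q : Set G) ≤ normalizer (R : Set G) := hCe.trans heR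
  have hQR : Q ≤ normalizer (R : Set G) := hQe.trans heR
  -- `R ∩ C(Q)` lies in `Q`
  have key : R ⊓ centralizer (Q : Set G) ≤ Q := by
    have h1 : R ⊓ centralizer (Q : Set G) ≤
        (pCore 2 (centralizer (Q : Set G) : Subgroup G)).map (centralizer (Q : Set G)).subtype := by
      apply Lib.LocalCore.le_map_pCore inf_le_right (hR2.to_le inf_le_left)
      intro c hc
      have h2 : ∀ c ∈ centralizer (Q : Set G), ∀ x ∈ R ⊓ centralizer (Q : Set G),
          c * x * c⁻¹ ∈ R ⊓ centralizer (Q : Set G) := fun c hc x hx =>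
        ⟨conj_mem hCR hc hx.1, (centralizer (Q : Set G)).mul_mem
          ((centralizer (Q : Set G)).mul_mem hc hx.2) ((centralizer (Q : Set G)).inv_mem hc)⟩
      rw [mem_normalizer_iff]
      intro x
      refine ⟨h2 c hc x, fun hx => ?_⟩
      have h3 := h2 c⁻¹ ((centralizer (Q : Set G)).inv_mem hc) _ hx
      have h4 : c⁻¹ * (c * x * c⁻¹) * (c⁻¹)⁻¹ = x := by group
      rwa [h4] at h3
    have h5 : (pCore 2 (centralizer (Q : Set G) : Subgroup G)).map (centralizer (Q : Set G)).subtype ≤ Q := by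
      rw [hQ]
      rw [← hQ]
      refine Lib.LocalCore.le_map_pCore ((map_subtype_le _).trans hCM)
        (Lib.LocalCore.isPGroup_map_pCore 2 _) ?_ |>.trans hQ.ge
      -- `M` normalizes `O₂(C(Q))`
      intro m hm
      have h6 : ∀ m ∈ M, ∀ x ∈ (pCore 2 (centralizer (Q : Set G) : Subgroup G)).map
          (centralizer (Q : Set G)).subtype, m * x * m⁻¹ ∈
          (pCore 2 (centralizer (Q : Set G) : Subgroup G)).map (centralizer (Q : Set G)).subtype := by
        intro m hm x hx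
        have h7 : (pCore 2 (centralizer (Q : Set G) : Subgroup G)).map (centralizer (Q : Set G)).subtype ≤
            centralizer (Q : Set G) := map_subtype_le _
        have h8 : cj m ((pCore 2 (centralizer (Q : Set G) : Subgroup G)).map
            (centralizer (Q : Set G)).subtype) ≤ (pCore 2 (centralizer (Q : Set G) : Subgroup G)).map
            (centralizer (Q : Set G)).subtype := by
          apply Lib.LocalCore.le_map_pCore
          · rintro _ ⟨y, hy, rfl⟩
            exact conj_mem hMC hm (h7 hy)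
          · exact (Lib.LocalCore.isPGroup_map_pCore 2 _).map _
          · -- `C(Q)` normalizes the conjugate
            have h9 := Lib.LocalCore.le_normalizer_map_pCore 2 (centralizer (Q : Set G))
            intro c hc
            have h10 : ∀ c ∈ centralizer (Q : Set G), ∀ y ∈ cj m ((pCore 2
                (centralizer (Q : Set G) : Subgroup G)).map (centralizer (Q : Set G)).subtype),
                c * y * c⁻¹ ∈ cj m ((pCore 2 (centralizer (Q : Set G) : Subgroup G)).map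
                (centralizer (Q : Set G)).subtype) := by
              rintro c hc _ ⟨y, hy, rfl⟩
              refine ⟨(m⁻¹ * c * m) * y * (m⁻¹ * c * m)⁻¹, conj_mem h9 (conj_mem' hMC hm hc) hy, ?_⟩
              change m * ((m⁻¹ * c * m) * y * (m⁻¹ * c * m)⁻¹) * m⁻¹ = c * (m * y * m⁻¹) * c⁻¹
              group
            rw [mem_normalizer_iff]
            intro x
            refine ⟨h10 c hc x, fun hx => ?_⟩
            have h3 := h10 c⁻¹ ((centralizer (Q : Set G)).inv_mem hc) _ hx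
            have h4 : c⁻¹ * (c * x * c⁻¹) * (c⁻¹)⁻¹ = x := by group
            rwa [h4] at h3
        exact h8 ⟨x, hx, rfl⟩
      rw [mem_normalizer_iff]
      intro x
      refine ⟨h6 m hm x, fun hx => ?_⟩
      have h3 := h6 m⁻¹ (M.inv_mem hm) _ hx
      have h4 : m⁻¹ * (m * x * m⁻¹) * (m⁻¹)⁻¹ = x := by group
      rwa [h4] at h3
    exact h1.trans h5
  have h2C : IsPGroup 2 (centralizer (Q : Set G) : Subgroup G) := by
    apply isPGroup_two_of
    intro x hx hodd
    have hxQ : Q ≤ centralizer ((zpowers x : Subgroup G) : Set G) := by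
      intro q hq
      rw [mem_centralizer_iff]
      intro b hb
      obtain ⟨k, rfl⟩ := mem_zpowers_iff.1 hb
      exact ((show Commute q x from (mem_centralizer_iff.1 hx q hq)).symm.zpow_left k)
    have h1 := Lib.ThompsonPQ.thompson_p_times_q (G := G) 2 Q (zpowers x) R hQ2
      (by rw [Nat.card_zpowers]; exact hodd.coprime_two_right) hR2 hxQ hQR
      (by rw [zpowers_le]; exact hCR hx) (key.trans hxQ)
    have h2 : x ∈ R := hRR (h1 (mem_zpowers x))
    obtain ⟨k, hk⟩ := hR2 ⟨x, h2⟩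
    have hk' : x ^ 2 ^ k = 1 := congrArg Subtype.val hk
    have h4 : orderOf x ∣ 2 ^ k := orderOf_dvd_of_pow_eq_one hk'
    have h5 : Nat.Coprime (orderOf x) (2 ^ k) := Nat.Coprime.pow_right k hodd.coprime_two_right
    have h6 : orderOf x = 1 := Nat.Coprime.eq_one_of_dvd h5 h4
    exact orderOf_eq_one_iff.1 h6
  have h3 := Lib.LocalCore.le_map_pCore hCM h2C hMC
  rw [← hQ] at h3
  exact h3

/-- **the reduction to the cases A and B** -/
theorem two_local {G : Type*} [Group G] [Finite G] [IsSimpleGroup G] (_hna : ¬ IsMulCommutative G)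
    (Γ : Geom G) (h : Facts Γ) (hA : CaseA Γ) (hB : CaseB Γ) (M : Subgroup G) (hM : IsCoatom M)
    (Q₀ : Subgroup G) (h0 : Q₀ ≠ ⊥) (h2 : IsPGroup 2 Q₀) (hle : Q₀ ≤ M)
    (hn : M ≤ normalizer (Q₀ : Set G)) : Good Γ M := by
  obtain ⟨Q, hQ⟩ : ∃ Q : Subgroup G, Q = (pCore 2 M).map M.subtype := ⟨_, rfl⟩
  have hQ2 : IsPGroup 2 Q := by rw [hQ]; exact Lib.LocalCore.isPGroup_map_pCore 2 M
  have hQM : Q ≤ M := by rw [hQ]; exact map_subtype_le _
  have hMQ : M ≤ normalizer (Q : Set G) := by rw [hQ]; exact Lib.LocalCore.le_normalizer_map_pCore 2 M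
  have hQ0 : Q₀ ≤ Q := by rw [hQ]; exact Lib.LocalCore.le_map_pCore hle h2 hn
  have hbot : Q ≠ ⊥ := by
    rintro rfl
    exact h0 (le_bot_iff.1 hQ0)
  have hN : normalizer (Q : Set G) = M := by
    rcases hM.le_iff.1 hMQ with h1 | h1
    · exfalso
      have h3 : Q.Normal := Subgroup.normalizer_eq_top_iff.1 h1
      rcases h3.eq_bot_or_eq_top with h4 | h4
      · exact hbot h4
      · exact hM.1 (top_le_iff.1 (h4 ▸ hQM))
    · exact h1
  have hself := centralizer_le_core h hQ hbot hN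
  have hloc : Loc M Q (om Q) :=
    { pgroup := hQ2
      E_ne := om_ne_bot hQ2 hbot
      E_le := fun x hx => hx.1
      el := ⟨fun a ha => ha.2.1, fun a ha b hb => hb.2.2 a ha.1⟩
      cent := fun x hx e he => he.2.2 x hx
      self := hself
      mem := by
        intro e he hc
        refine ⟨hself ?_, he, hc⟩
        rw [mem_centralizer_iff]
        exact hc
      normQ := hMQ
      normE := le_normalizer_om hMQ }
  by_cases hE : ∀ u ∈ om Q, u ≠ 1 → Γ.A u
  · exact hA M Q (om Q) hloc hE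
  · push Not at hE
    obtain ⟨u, hu, hu1, huA⟩ := hE
    exact hB M Q (om Q) hloc ⟨u, hu, (h.f1.invol u hu1 hu.2.1).resolve_left huA⟩

end Local

end Cfsg.Agent.H172.JM

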